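import Cfsg.Agent.H821.K547.Defs

/-!
# S4547: generators of Sylow 2-subgroups from odd index subgroups (helper5)
-/

set_option autoImplicit false

namespace Cfsg.Agent.H5.K547

open Cfsg.Agent.H821.K547

universe u v w

theorem rk_of_surj {n : ℕ} {P : Type u} {P' : Type v} [Group P] [Group P'] (f : P →* P') (hf : Function.Surjective f)
    (h : Rk n P') : Rk n P := by
  obtain ⟨g, hg⟩ := h
  exact ⟨g.comp f, hg.comp hf⟩

/-- `M ≤ G` of odd index, `M` maps onto `Y`, `D3 Y` -/
theorem d3_of_map {G : Type u} {Y : Type v} [Group G] [Finite G] [Group Y] (M : Subgroup G) (hM : ¬ 2 ∣ M.index)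
    (f : M →* Y) (hf : Function.Surjective f) (hY : D3 Y) : D3 G := by
  intro Q
  have R : Sylow 2 M := default
  -- a Sylow subgroup of `G` inside `M`
  have hR : IsPGroup 2 ((R : Subgroup M).map M.subtype) := R.isPGroup'.map _
  have hi : ¬ 2 ∣ ((R : Subgroup M).map M.subtype).index := by
    rw [Subgroup.index_map_subtype]
    intro h
    rcases (Nat.Prime.dvd_mul Nat.prime_two).1 h with h | h
    · exact R.not_dvd_index h
    · exact hM h
  let R' : Sylow 2 G := hR.toSylow hi
  -- the image
  let S : Sylow 2 Y := R.mapSurjective hf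
  have hS : Rk 3 ((R : Subgroup M).map f) := hY S
  have h1 : Rk 3 (R : Subgroup M) := rk_of_surj (f.subgroupMap (R : Subgroup M)) (f.subgroupMap_surjective _) hS
  have e1 : (R : Subgroup M) ≃* ((R : Subgroup M).map M.subtype) :=
    (R : Subgroup M).equivMapOfInjective M.subtype M.subtype_injective
  have e2 : R' ≃* Q := R'.equiv Q
  have e3 : Q ≃* (R : Subgroup M) := e2.symm.trans e1.symm
  exact rk_of_surj e3.toMonoidHom e3.surjective h1

/-- the elementary abelian group of order 8 -/
theorem d3_elem : D3 (Multiplicative (Fin 3 → ZMod 2)) := by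
  intro Q
  have hp : IsPGroup 2 (Multiplicative (Fin 3 → ZMod 2)) := IsPGroup.of_card (n := 3) (by
    rw [Nat.card_congr Multiplicative.toAdd, Nat.card_fun, Nat.card_zmod, Nat.card_fin])
  have h : (Q : Subgroup (Multiplicative (Fin 3 → ZMod 2))) = ⊤ :=
    Q.is_maximal' (Q := ⊤) (hp.of_injective (Subgroup.subtype _) (Subgroup.subtype_injective _)) le_top |>.symm
  refine ⟨(Q : Subgroup (Multiplicative (Fin 3 → ZMod 2))).subtype, fun x => ⟨⟨x, ?_⟩, rfl⟩⟩
  rw [h]
  exact Subgroup.mem_top x

theorem d3_of_hom {G : Type u} [Group G] [Finite G] (M : Subgroup G) (hM : ¬ 2 ∣ M.index)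
    (f : M →* Multiplicative (Fin 3 → ZMod 2)) (hf : Function.Surjective f) : D3 G :=
  d3_of_map M hM f hf d3_elem

theorem d3_of_surj {G : Type u} {Y : Type v} [Group G] [Finite G] [Group Y] (f : G →* Y) (hf : Function.Surjective f)
    (hY : D3 Y) : D3 G :=
  d3_of_map ⊤ (by rw [Subgroup.index_top]; decide) (f.comp (Subgroup.topEquiv (G := G)).toMonoidHom)
    (hf.comp (Subgroup.topEquiv (G := G)).surjective) hY

theorem d3_congr {G : Type u} {Y : Type v} [Group G] [Finite G] [Group Y] (e : G ≃* Y) (hY : D3 Y) : D3 G :=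
  d3_of_surj e.toMonoidHom e.surjective hY

/-- an orbit of length at most two gives a homomorphism onto a group of order two -/
theorem exists_char {G : Type u} {α : Type v} [Group G] [MulAction G α] {x y : α} (hxy : x ≠ y)
    (h : ∀ g : G, g • x = x ∨ g • x = y) :
    ∃ f : G →* Multiplicative (ZMod 2), ∀ g, (g • x = x → f g = 1) ∧ (g • x = y → f g = Multiplicative.ofAdd 1) := by
  classical
  have key : ∀ a b : G, ((a * b) • x = x ↔ (a • x = x ↔ b • x = x)) := by
    intro a b
    have ne : ∀ c : G, c • x = y → c • x ≠ x := fun c hc h' => hxy (h'.symm.trans hc)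
    rcases h a with ha | ha <;> rcases h b with hb | hb
    · rw [mul_smul, hb]
      exact iff_of_true ha (iff_of_true ha rfl)
    · refine iff_of_false ?_ fun h' => ne b hb (h'.1 ha)
      rw [mul_smul, hb]
      intro h2
      exact hxy (smul_left_cancel a (ha.trans h2.symm))
    · refine iff_of_false ?_ fun h' => ne a ha (h'.2 hb)
      rw [mul_smul, hb, ha]
      exact hxy.symm
    · refine iff_of_true ?_ (iff_of_false (ne a ha) (ne b hb))
      rcases h (a * b) with h2 | h2
      · exact h2
      · exfalso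
        rw [mul_smul, hb] at h2
        exact hxy.symm (smul_left_cancel a (h2.trans ha.symm))
  refine ⟨⟨⟨fun g => if g • x = x then 1 else Multiplicative.ofAdd 1, by simp⟩, fun a b => ?_⟩, fun g => ⟨fun hg => ?_,
    fun hg => ?_⟩⟩
  · show (if (a * b) • x = x then (1 : Multiplicative (ZMod 2)) else Multiplicative.ofAdd 1) =
      (if a • x = x then 1 else Multiplicative.ofAdd 1) * (if b • x = x then 1 else Multiplicative.ofAdd 1)
    rw [if_congr (key a b) rfl rfl]
    by_cases ha : a • x = x <;> by_cases hb : b • x = x <;> simp only [ha, hb, if_true, if_false, iff_self] <;> decide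
  · show (if g • x = x then (1 : Multiplicative (ZMod 2)) else Multiplicative.ofAdd 1) = 1
    rw [if_pos hg]
  · show (if g • x = x then (1 : Multiplicative (ZMod 2)) else Multiplicative.ofAdd 1) = _
    rw [if_neg (by rw [hg]; exact hxy.symm)]

/-- three independent characters -/
theorem exists_surj {G : Type u} [Group G] (f : Fin 3 → (G →* Multiplicative (ZMod 2))) (g : Fin 3 → G)
    (h : ∀ i j, f i (g j) = if i = j then Multiplicative.ofAdd 1 else 1) :
    ∃ F : G →* Multiplicative (Fin 3 → ZMod 2), Function.Surjective F := by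
  classical
  refine ⟨⟨⟨fun x => Multiplicative.ofAdd fun i => (f i x).toAdd, ?_⟩, fun a b => ?_⟩, fun v => ?_⟩
  · simp only [map_one]
    rfl
  · simp only [map_mul]
    rfl
  · refine ⟨(g 0) ^ (v.toAdd 0).val * (g 1) ^ (v.toAdd 1).val * (g 2) ^ (v.toAdd 2).val, ?_⟩
    show Multiplicative.ofAdd (fun i => (f i _).toAdd) = v
    apply Multiplicative.toAdd.injective
    funext i
    show (f i _).toAdd = v.toAdd i
    rw [map_mul (f i), map_mul (f i), map_pow (f i), map_pow (f i), map_pow (f i), h, h, h]
    have h2 : ∀ a : ZMod 2, Multiplicative.toAdd ((Multiplicative.ofAdd (1 : ZMod 2)) ^ a.val) = a := by decide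
    fin_cases i <;> simp [h2]

end Cfsg.Agent.H5.K547
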