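import Cfsg.Agent.H5.K547.Base
import Cfsg.Agent.H935.Meet.CoTwo

/-!
# S4547: the Sylow 2-subgroups of Co2 and B need three generators (helper5)
-/

set_option autoImplicit false

namespace Cfsg.Agent.H5.K547.Co2

open Cfsg Cfsg.Agent.SporadicA.GolayBase Cfsg.Agent.SporadicA.GolayPerm Cfsg.Agent.SporadicStructure.M24El
  Cfsg.Agent.Co2Type.TGroup Cfsg.Agent.Co2Type.TData Cfsg.Agent.Co2Type.Mono
open Cfsg.Agent.H821.K547
open Cfsg.Agent.H935.Meet.CoTwo (pi0 pi0_eq T_le_H)
open scoped Pointwise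

/-- the three sets and their images -/
def ma : Fin 3 → ℕ := ![8388608, 4, 1032]
def mb : Fin 3 → ℕ := ![1, 262144, 4718592]
/-- elements with independent actions -/
def pj : Fin 3 → ℕ := ![25525039304699397647261516727159255, 984122284074263746180992119694772480,
  959466143582213955282145915427293376]

theorem chk (i : Fin 3) : (L22.all fun P => Nat.beq (pimg P (ma i)) (ma i) || Nat.beq (pimg P (ma i)) (mb i)) = true := by
  fin_cases i <;> decide +kernel

theorem pj_mem (j : Fin 3) : pj j ∈ L22 := by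
  fin_cases j <;> exact memL_iff.1 (by decide +kernel)

theorem pj_img (i j : Fin 3) : pimg (pj j) (ma i) = if i = j then mb i else ma i := by
  fin_cases i <;> fin_cases j <;> decide +kernel

theorem ab_ne (i : Fin 3) : fin (ma i) ≠ fin (mb i) := by
  intro h
  have h1 := fin_injective (m := ma i) (n := mb i) (by fin_cases i <;> decide) (by fin_cases i <;> decide) h
  revert h1
  fin_cases i <;> decide

theorem T22_smul (i : Fin 3) (g : T22) : g • fin (ma i) = fin (ma i) ∨ g • fin (ma i) = fin (mb i) := by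
  obtain ⟨P, hP, h⟩ := mem_T22_iff.1 g.2
  have h1 : g • fin (ma i) = fin (pimg P (ma i)) := by
    show (g : M24) • fin (ma i) = _
    rw [h, el_smul_fin (ok_of_mem hP)]
  rw [h1]
  have h2 := List.all_eq_true.1 (chk i) P hP
  rw [Bool.or_eq_true] at h2
  rcases h2 with h2 | h2
  · left; rw [Nat.eq_of_beq_eq_true h2]
  · right; rw [Nat.eq_of_beq_eq_true h2]

/-- the Sylow 2-subgroup of `M22:2` maps onto an elementary abelian group of order 8 -/
theorem exists_T22 : ∃ F : T22 →* Multiplicative (Fin 3 → ZMod 2), Function.Surjective F := by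
  have h1 : ∀ i : Fin 3, ∃ f : T22 →* Multiplicative (ZMod 2), ∀ g,
      (g • fin (ma i) = fin (ma i) → f g = 1) ∧ (g • fin (ma i) = fin (mb i) → f g = Multiplicative.ofAdd 1) :=
    fun i => exists_char (ab_ne i) (T22_smul i)
  choose f hf using h1
  refine exists_surj f (fun j => ⟨el (pj j), el_mem_T22 (pj_mem j)⟩) fun i j => ?_
  have h2 : (⟨el (pj j), el_mem_T22 (pj_mem j)⟩ : T22) • fin (ma i) = fin (if i = j then mb i else ma i) := by
    show el (pj j) • fin (ma i) = _
    rw [el_smul_fin (ok_of_mem (pj_mem j)), pj_img]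
  by_cases hij : i = j
  · rw [if_pos hij] at h2 ⊢
    exact (hf i _).2 h2
  · rw [if_neg hij] at h2 ⊢
    exact (hf i _).1 h2

/-- the Sylow 2-subgroup of `Co2` maps onto that of `M22:2` -/
noncomputable def phi : T →* T22 :=
  (pi0.comp (Subgroup.inclusion T_le_H)).codRestrict T22 fun g => by
    obtain ⟨m, P, hm, hP, h⟩ := mem_T_iff.1 g.2
    show pi0 ⟨(g : Spor.Co2), _⟩ ∈ T22
    rw [pi0_eq hm (okP_of_mem hP) h]
    exact el_mem_T22 hP

theorem phi_surjective : Function.Surjective phi := by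
  intro g
  obtain ⟨P, hP, h⟩ := mem_T22_iff.1 g.2
  refine ⟨⟨mo2 0 P, mo2_mem_T inE_zero hP⟩, ?_⟩
  apply Subtype.ext
  show pi0 ⟨mo2 0 P, _⟩ = (g : M24)
  rw [pi0_eq inE_zero (okP_of_mem hP) rfl, h]

/-- **`D3 Co2`** -/
theorem d3_co2 : D3 Spor.Co2 := by
  have hfin : Finite Spor.Co2 := Nat.finite_of_card_ne_zero (by
    rw [Cfsg.Agent.Co2Type.CardCo2.card_co2]; norm_num)
  obtain ⟨F, hF⟩ := exists_T22
  exact d3_of_hom T Cfsg.Agent.Co2Type.FactsClass.odd_index (F.comp phi) (hF.comp phi_surjective)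

end Cfsg.Agent.H5.K547.Co2
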